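import Cfsg.Agent.H733.Tor.Bound
import Cfsg.Agent.BpLieP.Big

/-!
# S3235: orders of semisimple elements in cross characteristic (helper733)

`K` a simple group of Lie type in characteristic `r`, `A ≤ K` with `Pr p A`, `p ≥ 5`, `p ≠ r`.

* `not_dvd_centralizer` : `r` does not divide the order of the centraliser of `A`;
* `Reg` : the conclusion: `p ≤ 2 N + 1`, `p` divides `|K|`, and for every `z` of order prime to `r`: `z ^ (2 p) = 1` or
  `z ^ (p ^ m ± 1) = 1` for some `m ≥ 1` with `p ^ m ≤ 2 N + 1`, if `K` is a linear group of degree `N` over a field of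
  characteristic `≠ p`;
* `LieHyp r K` : what is used about `K`: local characteristic `r` and Gow's theorem (`H330.Gow`);
* `reg_of_hyp` : then `Reg` holds.
-/

set_option autoImplicit false

namespace Cfsg.Agent.H733.Tor

open Subgroup Matrix Module Cfsg
open Cfsg.Agent.H103.Tor
open Cfsg.Agent.BpLieP.Big (LocChar)

/-- `r` does not divide the order of the centraliser of a generator of `A` -/
theorem not_dvd_centralizer {p r : ℕ} [Fact r.Prime] (hp : p.Prime) (hp5 : 5 ≤ p) (hrp : r ≠ p) {K : Type*} [Group K]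
    [Finite K] (hL : LocChar r K) {A : Subgroup K} (h : Pr p A) {a : K} (ha : a ∈ A) (hAa : A = zpowers a) :
    ¬ r ∣ Nat.card (centralizer ({a} : Set K)) := by
  intro hd
  have hr : r.Prime := Fact.out
  have hpf := Fact.mk hp
  obtain ⟨u, hu⟩ := exists_prime_orderOf_dvd_card' r hd
  have hu' : orderOf (u : K) = r := by rw [Subgroup.orderOf_coe]; exact hu
  have hcomm : Commute a (u : K) := by
    have := mem_centralizer_singleton_iff.1 u.2
    first | exact this | exact this.symm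
  set Q : Subgroup K := zpowers (u : K) with hQd
  have hQc : Nat.card Q = r := by rw [hQd, Nat.card_zpowers, hu']
  have hQ : IsPGroup r Q := IsPGroup.of_card (n := 1) (by rw [hQc, pow_one])
  have hQ1 : Q ≠ ⊥ := by
    intro h0
    rw [h0, Subgroup.card_bot] at hQc
    exact hr.one_lt.ne hQc
  have hAN : A ≤ normalizer (Q : Set K) := by
    intro b hb
    have hbu : Commute b (u : K) := by
      rw [hAa] at hb
      obtain ⟨i, rfl⟩ := hb
      exact hcomm.zpow_left i
    have h1 : ∀ x ∈ Q, b * x * b⁻¹ = x := by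
      rintro _ ⟨j, rfl⟩
      have h2 : b * (u : K) ^ j = (u : K) ^ j * b := (hbu.zpow_right j).eq
      show b * (u : K) ^ j * b⁻¹ = (u : K) ^ j
      rw [h2]
      group
    rw [mem_normalizer_iff]
    intro x
    constructor
    · intro hx
      rw [h1 x hx]; exact hx
    · intro hx
      have h2 : b⁻¹ * (b * x * b⁻¹) * b = b * x * b⁻¹ := by
        have h3 := h1 _ hx
        generalize b * x * b⁻¹ = y at h3
        have h4 : b * y = y * b := by
          calc b * y = b * y * b⁻¹ * b := by group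
            _ = y * b := by rw [h3]
        calc b⁻¹ * y * b = b⁻¹ * (y * b) := by group
          _ = b⁻¹ * (b * y) := by rw [h4]
          _ = y := by group
      have h5 : b⁻¹ * (b * x * b⁻¹) * b = x := by group
      rw [← h5, h2]
      exact hx
  have h1 := hL Q hQ hQ1
  have hnor := Lib.Cores.pCore_normal (G := normalizer (Q : Set K)) r
  have hpg := Lib.Cores.pCore_isPGroup (G := normalizer (Q : Set K)) r
  set R : Subgroup K := (pCore r (normalizer (Q : Set K))).map (normalizer (Q : Set K)).subtype with hRd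
  have hn : ∀ b ∈ A, ∀ n ∈ R, b * n * b⁻¹ ∈ R := by
    rintro b hb _ ⟨n, hn, rfl⟩
    exact ⟨⟨b, hAN hb⟩ * n * ⟨b, hAN hb⟩⁻¹, hnor.conj_mem n hn _, rfl⟩
  have hRp : IsPGroup r R := hpg.map _
  have hR : ¬ p ∣ Nat.card R := by
    obtain ⟨k, hk⟩ := (IsPGroup.iff_card.1 hRp)
    rw [hk]
    intro h2
    exact hrp ((Nat.prime_dvd_prime_iff_eq hp hr).1 (hp.dvd_of_dvd_pow h2)).symm
  have hcm := h.centralize_of_not_dvd hp hp5 hn hR
  have h2 : (⟨a, hAN ha⟩ : normalizer (Q : Set K)) ∈ centralizer (pCore r (normalizer (Q : Set K)) :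
      Set (normalizer (Q : Set K))) := by
    rw [mem_centralizer_iff]
    intro y hy
    apply Subtype.ext
    exact (hcm a ha (y : K) ⟨y, hy, rfl⟩).symm
  obtain ⟨k, hk⟩ := hpg ⟨_, h1 h2⟩
  have h3 : a ^ r ^ k = 1 := by
    have h4 := congrArg (fun z : pCore r (normalizer (Q : Set K)) => ((z : normalizer (Q : Set K)) : K)) hk
    exact h4
  have h4 : orderOf a = p := by rw [← Nat.card_zpowers, ← hAa, h.card]
  have h5 : p ∣ r ^ k := h4 ▸ orderOf_dvd_of_pow_eq_one h3
  exact hrp ((Nat.prime_dvd_prime_iff_eq hp hr).1 (hp.dvd_of_dvd_pow h5)).symm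

/-- the facts about groups of Lie type in characteristic `r` which are used -/
structure LieHyp (r : ℕ) (K : Type*) [Group K] : Prop where
  loc : LocChar r K
  nonab : ¬ ∀ x y : K, x * y = y * x
  gow : ∀ {x z : K}, ¬ r ∣ Nat.card (centralizer ({x} : Set K)) → z ≠ 1 → ¬ r ∣ orderOf z →
    ∃ g h : K, g * x * g⁻¹ * (h * x * h⁻¹) = z

/-- restrictions on the orders of semisimple elements -/
structure Reg (p r N : ℕ) (K : Type*) [Group K] : Prop where
  le : p ≤ 2 * N + 1
  dvd : p ∣ Nat.card K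
  cases : ∀ z : K, ¬ r ∣ orderOf z → z ^ (2 * p) = 1 ∨ ∃ m : ℕ, 1 ≤ m ∧ p ^ m ≤ 2 * N + 1 ∧
    (z ^ (p ^ m - 1) = 1 ∨ z ^ (p ^ m + 1) = 1)

theorem reg_of_hyp {p r : ℕ} (hp : p.Prime) (hp5 : 5 ≤ p) (hr : r.Prime) (hrp : r ≠ p) {K : Type*} [Group K] [Finite K]
    [IsSimpleGroup K] (hK : LieHyp r K) {A : Subgroup K} (h : Pr p A) {F : Type*} [Field F] [CharP F r]
    {n : Type*} [Fintype n] [DecidableEq n] {N : ℕ} (hN : Fintype.card n = N) (f : K →* Matrix n n F)
    (hf : Function.Injective f) : Reg p r N K := by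
  have : Fact r.Prime := ⟨hr⟩
  have hpf : Fact p.Prime := ⟨hp⟩
  have hF : (p : F) ≠ 0 := by
    intro h0
    have h1 := (CharP.cast_eq_zero_iff F r p).1 h0
    exact hrp ((Nat.prime_dvd_prime_iff_eq hr hp).1 h1)
  obtain ⟨a, ha, hao, hAa⟩ := Cfsg.Agent.H333.SLTwoLine.exists_gen hp A h.card
  have hx := not_dvd_centralizer hp hp5 hrp hK.loc h ha hAa
  subst hN
  obtain ⟨h1, h2⟩ := Pr.cases_mat hp hp5 hK.nonab h hF f hf
  refine ⟨h1, ?_, fun z hz => ?_⟩
  · rw [← hao]; exact orderOf_dvd_natCard a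
  · by_cases hz1 : z = 1
    · left; rw [hz1, one_pow]
    · obtain ⟨g, k, hgk⟩ := hK.gow hx hz1 hz
      exact h2 ha ha hgk.symm

namespace Reg

variable {p r N : ℕ} {K : Type*} [Group K]

/-- the orders -/
theorem orderOf_cases (h : Reg p r N K) {z : K} (hz : ¬ r ∣ orderOf z) : orderOf z ∣ 2 * p ∨
    ∃ m : ℕ, 1 ≤ m ∧ p ^ m ≤ 2 * N + 1 ∧ (orderOf z ∣ p ^ m - 1 ∨ orderOf z ∣ p ^ m + 1) := by
  rcases h.cases z hz with h1 | ⟨m, hm, h1, h2⟩
  · exact Or.inl (orderOf_dvd_of_pow_eq_one h1)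
  · refine Or.inr ⟨m, hm, h1, ?_⟩
    rcases h2 with h2 | h2
    · exact Or.inl (orderOf_dvd_of_pow_eq_one h2)
    · exact Or.inr (orderOf_dvd_of_pow_eq_one h2)

/-- elements of odd order have order at most `2 N + 2` -/
theorem orderOf_le (h : Reg p r N K) (hp : p.Prime) (hp5 : 5 ≤ p) {z : K} (hz : ¬ r ∣ orderOf z)
    (hodd : ¬ 2 ∣ orderOf z) : orderOf z ≤ 2 * N + 2 := by
  rcases h.orderOf_cases hz with h1 | ⟨m, hm, h1, h2 | h2⟩
  · have h2 : (orderOf z).Coprime 2 := by
      rw [Nat.coprime_comm]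
      exact (Nat.Prime.coprime_iff_not_dvd Nat.prime_two).2 hodd
    have h3 := Nat.le_of_dvd hp.pos (h2.dvd_of_dvd_mul_left h1)
    have := h.le
    omega
  · have h3 : 5 ≤ p ^ m := hp5.trans (Nat.le_self_pow (by omega) p)
    have h4 := Nat.le_of_dvd (by omega) h2
    omega
  · have h4 := Nat.le_of_dvd (by omega) h2
    omega

/-- a prime divisor of `|K|` -/
theorem prime_cases (h : Reg p r N K) [Finite K] (hp : p.Prime) {s : ℕ} (hs : s.Prime) (hsr : s ≠ r) (hr : r.Prime)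
    (hd : s ∣ Nat.card K) : s = 2 ∨ s = p ∨ ∃ m : ℕ, 1 ≤ m ∧ p ^ m ≤ 2 * N + 1 ∧ (s ∣ p ^ m - 1 ∨ s ∣ p ^ m + 1) := by
  have := Fact.mk hs
  obtain ⟨z, hz⟩ := exists_prime_orderOf_dvd_card' s hd
  have h1 : ¬ r ∣ orderOf z := by
    rw [hz]
    intro h2
    exact hsr ((Nat.prime_dvd_prime_iff_eq hr hs).1 h2).symm
  rcases h.orderOf_cases h1 with h2 | h2
  · rw [hz, hs.dvd_mul] at h2
    rcases h2 with h2 | h2
    · exact Or.inl ((Nat.prime_dvd_prime_iff_eq hs Nat.prime_two).1 h2)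
    · exact Or.inr (Or.inl ((Nat.prime_dvd_prime_iff_eq hs hp).1 h2))
  · rw [hz] at h2
    exact Or.inr (Or.inr h2)

/-- a prime divisor of `|K|` is at most `2 N + 2` -/
theorem prime_le (h : Reg p r N K) [Finite K] (hp : p.Prime) (hp5 : 5 ≤ p) {s : ℕ} (hs : s.Prime) (hsr : s ≠ r)
    (hr : r.Prime) (hd : s ∣ Nat.card K) : s ≤ 2 * N + 2 := by
  have h0 := h.le
  rcases h.prime_cases hp hs hsr hr hd with h1 | h1 | ⟨m, hm, h1, h2 | h2⟩
  · omega
  · omega
  · have h3 : 5 ≤ p ^ m := hp5.trans (Nat.le_self_pow (by omega) p)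
    have h4 := Nat.le_of_dvd (by omega) h2
    omega
  · have h4 := Nat.le_of_dvd (by omega) h2
    omega

end Reg

end Cfsg.Agent.H733.Tor
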