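import Cfsg.Agent.H103.Tor.Basic
import Cfsg.Agent.H972.Weights
import Cfsg.Agent.H431.PSLTwoSpec

/-!
# S3235: representations of noncommuting pairs and orders of products (helper733)

`p ≥ 5` prime, `Pair p A B`: `A ⊔ B` is the image of `SL₂(p^m)` with kernel in `±1`.

* `sl_bound` : a representation of `SL₂(K)`, `|K| = q` a power of `p`, over an algebraically closed field of
  characteristic different from `p`, not trivial on `u x`, has degree at least `(q - 1) / 2`;
* `Pair.order_cases` : elements `z` of `A ⊔ B`: `z ^ (2 p) = 1`, `z ^ (q - 1) = 1` or `z ^ (q + 1) = 1`, where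
  `q = p ^ m ≤ 2 N + 1` if `A ⊔ B` has a faithful representation of degree `N`;
* `Pr.order_cases` : the same for the products of two elements of conjugates of `A`, if `Pr p A`.
-/

set_option autoImplicit false

namespace Cfsg.Agent.H733.Tor

open Subgroup Matrix Module
open Cfsg.Agent.H333.SLTwoLine (Ker1 u l d u_mul u_inv u_zero d_u)
open Cfsg.Agent.H972.Weights Cfsg.Agent.H103.Tor

section Bound

variable {K : Type} [Field K] [Fintype K]

/-- `u` as a homomorphism -/
def uHom (K : Type) [Field K] : Multiplicative K →* SpecialLinearGroup (Fin 2) K where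
  toFun x := u x.toAdd
  map_one' := u_zero
  map_mul' x y := (u_mul _ _).symm

theorem uHom_apply (x : Multiplicative K) : uHom K x = u x.toAdd := rfl

/-- multiplication by a square -/
def sqHom (c : K) : Multiplicative K →* Multiplicative K := AddMonoidHom.toMultiplicative (AddMonoidHom.mulLeft c)

theorem sqHom_apply (c : K) (x : Multiplicative K) : sqHom c x = Multiplicative.ofAdd (c * x.toAdd) := rfl

theorem sl_bound {p : ℕ} (hp : p.Prime) [CharP K p] {E U : Type*} [Field E] [IsAlgClosed E]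
    (hE : (p : E) ≠ 0) [AddCommGroup U] [Module E U] [FiniteDimensional E U]
    (ρ : SpecialLinearGroup (Fin 2) K →* Module.End E U) (h : ∃ x : K, ρ (u x) ≠ 1) :
    Fintype.card K ≤ 2 * finrank E U + 1 := by
  classical
  have hpf := Fact.mk hp
  have hexp : Monoid.exponent (Multiplicative K) ∣ p := by
    refine Monoid.exponent_dvd_of_forall_pow_eq_one fun x => ?_
    apply Multiplicative.toAdd.injective
    rw [toAdd_pow, toAdd_one, nsmul_eq_mul, CharP.cast_eq_zero, zero_mul]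
  have hcard : (Nat.card (Multiplicative K) : E) ≠ 0 := by
    obtain ⟨n, hpn, hn⟩ := FiniteField.card K p
    have e : Nat.card (Multiplicative K) = p ^ (n : ℕ) := by
      rw [← hn, ← Nat.card_eq_fintype_card]; exact Nat.card_congr Multiplicative.toAdd
    rw [e, Nat.cast_pow]
    exact pow_ne_zero _ hE
  have hexp0 : ((Monoid.exponent (Multiplicative K) : ℕ) : E) ≠ 0 := by
    obtain ⟨c, hc⟩ := hexp
    intro h0
    apply hE
    rw [hc, Nat.cast_mul, h0, zero_mul]
  have : NeZero ((Monoid.exponent (Multiplicative K) : ℕ) : E) := ⟨hexp0⟩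
  obtain ⟨x₀, hx₀⟩ := h
  obtain ⟨χ, hχ1, hχ⟩ := exists_hasWeight (A := Multiplicative K) (K := E) hcard (ρ.comp (uHom K))
    ⟨Multiplicative.ofAdd x₀, hx₀⟩
  -- the weights `χ ∘ (c * ·)`, `c` a nonzero square
  let S : Subgroup Kˣ := (powMonoidHom 2 : Kˣ →* Kˣ).range
  have hw : ∀ c : S, HasWeight (ρ.comp (uHom K)) (χ.comp (sqHom ((c : Kˣ) : K))) := by
    rintro ⟨_, t, rfl⟩
    refine hχ.conj (d ((t : K))⁻¹ (inv_ne_zero t.ne_zero)) _ fun x => ?_
    have h1 := d_u ((t : K))⁻¹ (inv_ne_zero t.ne_zero) ((t : K) ^ 2 * x.toAdd)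
    have h2 : ((t : K)⁻¹) ^ 2 * ((t : K) ^ 2 * x.toAdd) = x.toAdd := by
      rw [← mul_assoc, ← mul_pow, inv_mul_cancel₀ t.ne_zero, one_pow, one_mul]
    rw [h2] at h1
    show u ((((powMonoidHom 2 : Kˣ →* Kˣ) t : Kˣ) : K) * x.toAdd) = _
    have h3 : (((powMonoidHom 2 : Kˣ →* Kˣ) t : Kˣ) : K) = (t : K) ^ 2 := by simp
    rw [h3]
    generalize d ((t : K))⁻¹ (inv_ne_zero t.ne_zero) = D at h1 ⊢
    have h4 : uHom K x = D * u ((t : K) ^ 2 * x.toAdd) * D⁻¹ := h1.symm
    rw [h4]
    group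
  have hinj : Function.Injective fun c : S => χ.comp (sqHom ((c : Kˣ) : K)) := by
    intro c c' hcc
    by_contra hne
    apply hχ1
    have hne' : ((c : Kˣ) : K) - ((c' : Kˣ) : K) ≠ 0 := by
      intro h0
      exact hne (Subtype.ext (Units.ext (sub_eq_zero.1 h0)))
    refine MonoidHom.ext fun y => ?_
    have h1 : χ (Multiplicative.ofAdd (((c : Kˣ) : K) * (y.toAdd / (((c : Kˣ) : K) - ((c' : Kˣ) : K))))) =
        χ (Multiplicative.ofAdd (((c' : Kˣ) : K) * (y.toAdd / (((c : Kˣ) : K) - ((c' : Kˣ) : K))))) :=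
      DFunLike.congr_fun hcc (Multiplicative.ofAdd (y.toAdd / (((c : Kˣ) : K) - ((c' : Kˣ) : K))))
    have h2 : y = Multiplicative.ofAdd (((c : Kˣ) : K) * (y.toAdd / (((c : Kˣ) : K) - ((c' : Kˣ) : K)))) /
        Multiplicative.ofAdd (((c' : Kˣ) : K) * (y.toAdd / (((c : Kˣ) : K) - ((c' : Kˣ) : K)))) := by
      rw [← ofAdd_sub, ← sub_mul]
      apply Multiplicative.toAdd.injective
      rw [toAdd_ofAdd]
      field_simp
    rw [h2, map_div, h1, div_self', MonoidHom.one_apply]
  have h5 := card_le_finrank (ρ.comp (uHom K)) (fun c : S => χ.comp (sqHom ((c : Kˣ) : K))) hinj hw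
  -- the number of squares
  have h6 : Nat.card Kˣ = Nat.card S * Nat.card (powMonoidHom 2 : Kˣ →* Kˣ).ker := by
    rw [mul_comm, ← Subgroup.card_mul_index (powMonoidHom 2 : Kˣ →* Kˣ).ker, Subgroup.index_ker]
  have h7 : Nat.card (powMonoidHom 2 : Kˣ →* Kˣ).ker ≤ 2 := by
    have h8 : (powMonoidHom 2 : Kˣ →* Kˣ).ker ≤ zpowers (-1 : Kˣ) := by
      intro t ht
      rw [MonoidHom.mem_ker, powMonoidHom_apply] at ht
      have h9 : ((t : K)) ^ 2 = 1 := by
        have := congrArg (fun z : Kˣ => (z : K)) ht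
        simpa using this
      rcases sq_eq_sq_iff_eq_or_eq_neg.1 (h9.trans (one_pow 2).symm) with h10 | h10
      · have : t = 1 := Units.ext h10
        rw [this]; exact one_mem _
      · have : t = -1 := Units.ext (by rw [h10]; simp)
        rw [this]; exact mem_zpowers _
    refine (Nat.card_le_card_of_injective _ (Subgroup.inclusion_injective h8)).trans ?_
    rw [Nat.card_zpowers]
    exact orderOf_le_of_pow_eq_one (by norm_num) (by simp)
  have h8 : Nat.card Kˣ = Fintype.card K - 1 := by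
    rw [Nat.card_eq_fintype_card, Fintype.card_units]
  have h9 : Nat.card S * Nat.card (powMonoidHom 2 : Kˣ →* Kˣ).ker ≤ finrank E U * 2 := Nat.mul_le_mul h5 h7
  omega

/-- orders of the elements of `SL₂(q)` -/
theorem sl_order {p : ℕ} (hp : p.Prime) (hp2 : p ≠ 2) [CharP K p] (Z : SpecialLinearGroup (Fin 2) K) :
    Z ^ (2 * p) = 1 ∨ Z ^ (Fintype.card K - 1) = 1 ∨ Z ^ (Fintype.card K + 1) = 1 := by
  have hpf := Fact.mk hp
  obtain ⟨n, hpn, hn⟩ := FiniteField.card K p
  have hodd : Odd (Fintype.card K) := by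
    rw [hn]; exact (hp.odd_of_ne_two hp2).pow
  obtain ⟨c, hc⟩ := hodd
  have hcen : ∀ Y : SpecialLinearGroup (Fin 2) K, Y ∈ Subgroup.center (SpecialLinearGroup (Fin 2) K) → Y ^ 2 = 1 := by
    intro Y hY
    obtain ⟨r, hr, hrY⟩ := Matrix.SpecialLinearGroup.mem_center_iff.1 hY
    have hr2 : r ^ 2 = 1 := by simpa using hr
    apply Subtype.ext
    rw [Matrix.SpecialLinearGroup.coe_pow, ← hrY, ← map_pow, hr2]
    simp
  rcases H431.PSLTwoSpec.sl_pow_cases (p := p) (d := 2) (k₁ := c) (k₂ := c + 1) (Or.inr rfl)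
    (by omega) (by omega) Z with h | h | h
  · left
    have := hcen _ h
    rwa [← pow_mul, mul_comm] at this
  · right; left
    have := hcen _ h
    rw [← pow_mul] at this
    rw [show Fintype.card K - 1 = c * 2 by omega]
    exact this
  · right; right
    have := hcen _ h
    rw [← pow_mul] at this
    rw [show Fintype.card K + 1 = (c + 1) * 2 by omega]
    exact this

end Bound

variable {G : Type*} [Group G] {p : ℕ} (hp : p.Prime) (hp5 : 5 ≤ p)

include hp hp5

/-- **Elements of `A ⊔ B`.** -/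
theorem Pair.cases {A B : Subgroup G} (h : Pair p A B) {E U : Type*} [Field E] [IsAlgClosed E] (hE : (p : E) ≠ 0)
    [AddCommGroup U] [Module E U] [FiniteDimensional E U] (ρ : G →* Module.End E U) (hA : Nat.card A = p)
    (hρ : Function.Injective ρ) :
    ∃ m : ℕ, 1 ≤ m ∧ p ^ m ≤ 2 * finrank E U + 1 ∧
      ∀ z ∈ A ⊔ B, z ^ (2 * p) = 1 ∨ z ^ (p ^ m - 1) = 1 ∨ z ^ (p ^ m + 1) = 1 := by
  obtain ⟨K, _, _, _, m, φ, x, y, hm, hK, hφ, hX, hx, hy, hAx, hBy⟩ := h
  refine ⟨m, hm, ?_, ?_⟩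
  · rw [← hK]
    refine sl_bound hp hE (ρ.comp φ) ⟨x, fun h0 => ?_⟩
    have h1 : φ (u x) = 1 := hρ (by rw [map_one]; exact h0)
    rw [h1, zpowers_one_eq_bot] at hAx
    rw [hAx, Subgroup.card_bot] at hA
    exact hp.one_lt.ne hA
  · intro z hz
    rw [← hX] at hz
    obtain ⟨Z, rfl⟩ := hz
    rcases sl_order hp (by omega) Z with h1 | h1 | h1
    · left; rw [← map_pow, h1, map_one]
    · right; left; rw [← hK, ← map_pow, h1, map_one]
    · right; right; rw [← hK, ← map_pow, h1, map_one]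

/-- **Products of two elements of conjugates of `A`.** -/
theorem Pr.cases {A : Subgroup G} (h : Pr p A) {E U : Type*} [Field E] [IsAlgClosed E] (hE : (p : E) ≠ 0)
    [AddCommGroup U] [Module E U] [FiniteDimensional E U] (ρ : G →* Module.End E U) (hρ : Function.Injective ρ)
    {g k a b : G} (ha : a ∈ A) (hb : b ∈ A) {z : G} (hz : z = g * a * g⁻¹ * (k * b * k⁻¹)) :
    z ^ (2 * p) = 1 ∨ ∃ m : ℕ, 1 ≤ m ∧ p ^ m ≤ 2 * finrank E U + 1 ∧ (z ^ (p ^ m - 1) = 1 ∨ z ^ (p ^ m + 1) = 1) := by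
  have h1 : g * a * g⁻¹ ∈ cj g A := conj_mem_cj ha
  have h2 : k * b * k⁻¹ ∈ cj k A := conj_mem_cj hb
  by_cases hc : Cm (cj g A) (cj k A)
  · left
    have h3 : Commute (g * a * g⁻¹) (k * b * k⁻¹) := hc _ h1 _ h2
    have h4 : ∀ c ∈ A, c ^ p = 1 := by
      intro c hcA
      have := pow_card_eq_one' (x := (⟨c, hcA⟩ : A))
      rw [h.card] at this
      exact congrArg Subtype.val this
    have h5 : z ^ p = 1 := by
      rw [hz, h3.mul_pow, conj_pow, conj_pow, h4 a ha, h4 b hb]
      group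
    rw [mul_comm, pow_mul, h5, one_pow]
  · obtain ⟨m, hm, h3, h4⟩ := Pair.cases hp hp5 (exists_pair hp hp5 (h.card_cj g) (h.card_cj k)
      ((h.pair' g k).resolve_left hc) hc) hE ρ (h.card_cj g) hρ
    rcases h4 z (by rw [hz]; exact mul_mem (mem_sup_left h1) (mem_sup_right h2)) with h5 | h5
    · exact Or.inl h5
    · exact Or.inr ⟨m, hm, h3, h5⟩

/-- `p ≤ 2 N + 1` for a simple group with a faithful representation of degree `N` -/
theorem Pr.le [Finite G] [IsSimpleGroup G] (hna : ¬ ∀ x y : G, x * y = y * x) {A : Subgroup G} (h : Pr p A)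
    {E U : Type*} [Field E] [IsAlgClosed E] (hE : (p : E) ≠ 0) [AddCommGroup U] [Module E U]
    [FiniteDimensional E U] (ρ : G →* Module.End E U) (hρ : Function.Injective ρ) : p ≤ 2 * finrank E U + 1 := by
  obtain ⟨g, hg⟩ := h.exists_noncomm_simple hp hp5 hna
  obtain ⟨m, hm, h1, -⟩ := Pair.cases hp hp5 (h.exists_pair hp hp5 hg) hE ρ h.card hρ
  exact (Nat.le_self_pow (by omega) p).trans h1

/-- the matrix version, over an arbitrary field -/
theorem Pr.cases_mat [Finite G] [IsSimpleGroup G] (hna : ¬ ∀ x y : G, x * y = y * x) {A : Subgroup G} (h : Pr p A)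
    {F : Type*} [Field F] (hF : (p : F) ≠ 0) {n : Type*} [Fintype n] [DecidableEq n]
    (f : G →* Matrix n n F) (hf : Function.Injective f) :
    p ≤ 2 * Fintype.card n + 1 ∧ ∀ {g k a b : G}, a ∈ A → b ∈ A → ∀ {z : G}, z = g * a * g⁻¹ * (k * b * k⁻¹) →
      z ^ (2 * p) = 1 ∨ ∃ m : ℕ, 1 ≤ m ∧ p ^ m ≤ 2 * Fintype.card n + 1 ∧
        (z ^ (p ^ m - 1) = 1 ∨ z ^ (p ^ m + 1) = 1) := by
  let E := AlgebraicClosure F
  have hE : (p : E) ≠ 0 := by
    intro h0
    apply hF
    apply (algebraMap F E).injective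
    rw [map_natCast, map_zero]
    exact h0
  let ρ : G →* Module.End E (n → E) :=
    ((Matrix.toLinAlgEquiv' (R := E) (n := n)).toAlgHom.toRingHom.toMonoidHom.comp
      ((algebraMap F E).mapMatrix.toMonoidHom)).comp f
  have hρ : Function.Injective ρ := by
    intro x y hxy
    apply hf
    have h1 : (algebraMap F E).mapMatrix (f x) = (algebraMap F E).mapMatrix (f y) :=
      (Matrix.toLinAlgEquiv' (R := E) (n := n)).injective hxy
    exact Matrix.map_injective (algebraMap F E).injective h1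
  have hfin : finrank E (n → E) = Fintype.card n := Module.finrank_fintype_fun_eq_card E
  rw [← hfin]
  exact ⟨Pr.le hp hp5 hna h hE ρ hρ, fun ha hb _ hz => Pr.cases hp hp5 h hE ρ hρ ha hb hz⟩

end Cfsg.Agent.H733.Tor
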