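import Cfsg.Agent.H733.Tor.Main

/-!
# S3235: the finite checks (helper733)

* `Reg.false_of_chk` : contradiction from a list of prime divisors of `|K|` and a decidable check;
* `Reg.false_of_order` : contradiction from an element of odd order larger than `2 N + 2`;
* `Reg.congr`, `reg_sub` : linear groups.
-/

set_option autoImplicit false

namespace Cfsg.Agent.H733.Tor

open Subgroup Matrix Module Cfsg
open Cfsg.Agent.H103.Tor

/-- `s` is `p` or divides `p ^ m ± 1`, `p ^ m ≤ M`, `1 ≤ m ≤ 9` -/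
def okb (p s M : ℕ) : Bool :=
  decide (s = p) || (List.range 9).any fun i => decide (p ^ (i + 1) ≤ M) &&
    (decide ((p ^ (i + 1) - 1) % s = 0) || decide ((p ^ (i + 1) + 1) % s = 0))

/-- `p` is composite, by a divisor at most 23 -/
def comp (p : ℕ) : Bool := [2, 3, 5, 7, 11, 13, 17, 19].any fun d => decide (p % d = 0) && decide (p ≠ d)

/-- no prime divisor `p ≥ 5` of `n`, `p ≤ M`, is admissible for all members of `L` -/
def chk (M n : ℕ) (L : List ℕ) : Bool :=
  (List.range (M + 1)).all fun p => decide (p < 5) || comp p || decide (n % p ≠ 0) || !(L.all fun s => okb p s M)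

/-- the same, with one exception -/
def chkx (M n : ℕ) (L : List ℕ) (x : ℕ) : Bool :=
  (List.range (M + 1)).all fun p => decide (p < 5) || comp p || decide (n % p ≠ 0) || decide (p = x) ||
    !(L.all fun s => okb p s M)

theorem comp_eq_false {p : ℕ} (hp : p.Prime) : comp p = false := by
  unfold comp
  rw [List.any_eq_false]
  intro d hd
  simp only [List.mem_cons, List.not_mem_nil, or_false] at hd
  simp only [Bool.and_eq_true, decide_eq_true_eq, not_and, not_not]
  intro h1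
  have h2 : d ∣ p := Nat.dvd_of_mod_eq_zero h1
  rcases (Nat.dvd_prime hp).1 h2 with h3 | h3
  · omega
  · exact h3.symm

namespace Reg

variable {p r N : ℕ} {K : Type*} [Group K]

theorem okb_of_prime (h : Reg p r N K) [Finite K] (hp : p.Prime) (hp5 : 5 ≤ p) (hr : r.Prime) (hM : 2 * N + 1 < 5 ^ 10)
    {s : ℕ} (hs : s.Prime) (hsr : s ≠ r) (hs2 : s ≠ 2) (hd : s ∣ Nat.card K) : okb p s (2 * N + 1) = true := by
  unfold okb
  rw [Bool.or_eq_true, decide_eq_true_eq, List.any_eq_true]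
  rcases h.prime_cases hp hs hsr hr hd with h1 | h1 | ⟨m, hm, h1, h2⟩
  · exact absurd h1 hs2
  · exact Or.inl h1
  · right
    have h3 : m < 10 := by
      by_contra hc
      have h4 : 5 ^ 10 ≤ p ^ m := by
        calc 5 ^ 10 ≤ p ^ 10 := Nat.pow_le_pow_left hp5 10
          _ ≤ p ^ m := Nat.pow_le_pow_right hp.pos (by omega)
      omega
    refine ⟨m - 1, List.mem_range.2 (by omega), ?_⟩
    rw [Nat.sub_add_cancel hm, Bool.and_eq_true, Bool.or_eq_true, decide_eq_true_eq, decide_eq_true_eq,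
      decide_eq_true_eq]
    refine ⟨h1, ?_⟩
    rcases h2 with h2 | h2
    · exact Or.inl (Nat.mod_eq_zero_of_dvd h2)
    · exact Or.inr (Nat.mod_eq_zero_of_dvd h2)

/-- the finite check -/
theorem false_of_chk (h : Reg p r N K) [Finite K] (hp : p.Prime) (hp5 : 5 ≤ p) (hr : r.Prime) {M n : ℕ}
    (hM : 2 * N + 1 = M) (hM' : M < 5 ^ 10) (hn : Nat.card K = n) {L : List ℕ}
    (hL : ∀ s ∈ L, s.Prime ∧ s ≠ r ∧ s ≠ 2 ∧ s ∣ n) (hc : chk M n L = true) : False := by
  subst hM
  unfold chk at hc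
  rw [List.all_eq_true] at hc
  have h1 := hc p (List.mem_range.2 (Nat.lt_succ_of_le h.le))
  rw [comp_eq_false hp, Bool.or_false, Bool.or_eq_true, Bool.or_eq_true, decide_eq_true_eq, decide_eq_true_eq] at h1
  rcases h1 with (h1 | h1) | h1
  · omega
  · exact h1 (Nat.mod_eq_zero_of_dvd (hn ▸ h.dvd))
  · rw [Bool.not_eq_true', List.all_eq_false] at h1
    obtain ⟨s, hs, h2⟩ := h1
    obtain ⟨h3, h4, h5, h6⟩ := hL s hs
    exact h2 (h.okb_of_prime hp hp5 hr hM' h3 h4 h5 (hn ▸ h6))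

/-- the finite check with one exception -/
theorem eq_of_chkx (h : Reg p r N K) [Finite K] (hp : p.Prime) (hp5 : 5 ≤ p) (hr : r.Prime) {M n x : ℕ}
    (hM : 2 * N + 1 = M) (hM' : M < 5 ^ 10) (hn : Nat.card K = n) {L : List ℕ}
    (hL : ∀ s ∈ L, s.Prime ∧ s ≠ r ∧ s ≠ 2 ∧ s ∣ n) (hc : chkx M n L x = true) : p = x := by
  subst hM
  unfold chkx at hc
  rw [List.all_eq_true] at hc
  have h1 := hc p (List.mem_range.2 (Nat.lt_succ_of_le h.le))
  rw [comp_eq_false hp, Bool.or_false, Bool.or_eq_true, Bool.or_eq_true, Bool.or_eq_true, decide_eq_true_eq,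
    decide_eq_true_eq, decide_eq_true_eq] at h1
  rcases h1 with ((h1 | h1) | h1) | h1
  · omega
  · exact absurd (Nat.mod_eq_zero_of_dvd (hn ▸ h.dvd)) h1
  · exact h1
  · rw [Bool.not_eq_true', List.all_eq_false] at h1
    obtain ⟨s, hs, h2⟩ := h1
    obtain ⟨h3, h4, h5, h6⟩ := hL s hs
    exact absurd (h.okb_of_prime hp hp5 hr hM' h3 h4 h5 (hn ▸ h6)) h2

/-- an element of odd order larger than `2 N + 2` -/
theorem false_of_order (h : Reg p r N K) (hp : p.Prime) (hp5 : 5 ≤ p) {z : K} {m : ℕ} (hz : orderOf z = m)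
    (hr : ¬ r ∣ m) (h2 : ¬ 2 ∣ m) (hm : 2 * N + 2 < m) : False := by
  have := h.orderOf_le hp hp5 (by rw [hz]; exact hr) (by rw [hz]; exact h2)
  omega

end Reg

/-- a subgroup of `GL_N` -/
theorem reg_sub {p r : ℕ} (hp : p.Prime) (hp5 : 5 ≤ p) (hr : r.Prime) (hrp : r ≠ p) {K : Type*} [Group K] [Finite K]
    [IsSimpleGroup K] (hK : LieHyp r K) {A : Subgroup K} (h : Pr p A) {F : Type*} [Field F] [CharP F r]
    {ι : Type*} [Fintype ι] [DecidableEq ι] {N : ℕ} (hN : Fintype.card ι = N) {G0 : Subgroup (GL ι F)}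
    (e : K ≃* G0) : Reg p r N K := by
  refine reg_of_hyp hp hp5 hr hrp hK h hN ((Units.coeHom _).comp (G0.subtype.comp e.toMonoidHom)) ?_
  intro x y hxy
  exact e.injective (Subtype.ext (Units.ext hxy))

/-- the order of an element of a cyclic subgroup, transported -/
theorem exists_order_of_cyclic {K K' : Type*} [Group K] [Group K'] (e : K ≃* K') {T : Subgroup K'} (hT : IsCyclic T)
    {m : ℕ} (hm : Nat.card T = m) : ∃ z : K, orderOf z = m := by
  obtain ⟨g, hg⟩ := hT.exists_generator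
  refine ⟨e.symm (g : K'), ?_⟩
  rw [MulEquiv.orderOf_eq, Subgroup.orderOf_coe, ← hm]
  exact orderOf_eq_card_of_forall_mem_zpowers hg

/-- an element whose order is a given divisor -/
theorem exists_order_of_dvd {K : Type*} [Group K] [Finite K] {x : K} {m : ℕ} (h : m ∣ orderOf x) :
    ∃ z : K, orderOf z = m := by
  obtain ⟨c, hc⟩ := h
  have h0 : 0 < orderOf x := orderOf_pos x
  have hc0 : c ≠ 0 := by
    rintro rfl
    omega
  refine ⟨x ^ c, ?_⟩
  rw [orderOf_pow_of_dvd hc0 ⟨m, by rw [hc, mul_comm]⟩, hc, Nat.mul_div_cancel _ (Nat.pos_of_ne_zero hc0)]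

end Cfsg.Agent.H733.Tor
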