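import Cfsg.Agent.H733.Tor.Chk
import Cfsg.Agent.H378.ExcAdj

/-!
# S3235: the exceptional Chevalley groups in cross characteristic (helper733)
-/

set_option autoImplicit false

namespace Cfsg.Agent.H733.Tor

open Subgroup Matrix Module Cfsg Cfsg.Lie Cfsg.Lie.ChevalleyDatum
open Cfsg.Agent.H103.Tor
open Cfsg.Agent.ChevalleyStructure.CoxeterGeomTypes
open Cfsg.Agent.Nodes.RGDChev
open Cfsg.Agent.BpExc.RowsUntw Cfsg.Agent.BpExc.FamInst
open Cfsg.Agent.H378 Cfsg.Agent.H378.AdjTab Cfsg.Agent.H378.CycTab Cfsg.Agent.H129.WData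
open Cfsg.Agent.BpExc.Tow Cfsg.Agent.BpExc.TowChev Cfsg.Agent.BpExc.FamExt Cfsg.Agent.BpExc.FamUntw
  Cfsg.Agent.BpExc.LangFr Cfsg.Agent.BpExc.FamField

/-- the characteristic divides the order of the field -/
theorem char_dvd_card (F : Type*) [Field F] [Fintype F] (r : ℕ) [CharP F r] : r.Prime ∧ r ∣ Fintype.card F := by
  obtain ⟨n, hr, hn⟩ := FiniteField.card F r
  exact ⟨hr, hn ▸ dvd_pow_self r n.pos.ne'⟩

/-- a number congruent to 1 modulo `q` is not divisible by `r` -/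
theorem not_dvd_of_eq {r q m : ℕ} (hr : r.Prime) (hrq : r ∣ q) {x : ℤ} (h : (m : ℤ) = 1 + (q : ℤ) * x) : ¬ r ∣ m := by
  intro h1
  have h2 : (r : ℤ) ∣ (m : ℤ) := Int.natCast_dvd_natCast.2 h1
  have h3 : (r : ℤ) ∣ (q : ℤ) * x := dvd_mul_of_dvd_left (Int.natCast_dvd_natCast.2 hrq) x
  rw [h] at h2
  have h4 : (r : ℤ) ∣ 1 := (Int.dvd_add_left h3).1 h2
  exact hr.one_lt.ne' (Nat.dvd_one.1 (by exact_mod_cast h4))

/-- an odd number -/
theorem not_two_dvd_of {m q : ℕ} (P : ZMod 2 → ZMod 2) (hP : ∀ x, P x ≠ 0) (h : (m : ZMod 2) = P (q : ZMod 2)) :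
    ¬ 2 ∣ m := by
  intro h1
  rw [← ZMod.natCast_eq_zero_iff] at h1
  exact hP _ (h ▸ h1)

theorem card_Idx (D : ChevalleyDatum) : Fintype.card D.Idx = D.rank + D.nroots := by
  simp [ChevalleyDatum.Idx]

/-- a quotient -/
theorem quo_dvd {m o g : ℕ} (hm : 0 < m) (h : m ∣ o * g) : m / Nat.gcd m g ∣ o := by
  have hg : 0 < Nat.gcd m g := Nat.gcd_pos_of_pos_left _ hm
  have h1 : Nat.Coprime (m / Nat.gcd m g) (g / Nat.gcd m g) := Nat.coprime_div_gcd_div_gcd hg
  refine h1.dvd_of_dvd_mul_right ?_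
  rw [← Nat.mul_div_assoc _ (Nat.gcd_dvd_right m g)]
  exact Nat.div_dvd_div (Nat.gcd_dvd_left m g) h

variable {p r : ℕ} {K : Type*} [Group K] [Finite K]

/-- a torus element: `m ∣ |x| g`, `g ≤ d` -/
theorem Reg.false_of_torus {N : ℕ} (h : Reg p r N K) (hp : p.Prime) (hp5 : 5 ≤ p) {K' : Type*} [Group K']
    (e : K ≃* K') {d g m : ℕ} (hgd : g ≤ d) (hg : 0 < g) (hx : ∃ x : K', m ∣ orderOf x * g) (hr : ¬ r ∣ m)
    (h2 : ¬ 2 ∣ m) (hm : d * (2 * N + 2) < m) : False := by
  have hm0 : 0 < m := by omega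
  obtain ⟨x, hx⟩ := hx
  have h3 := quo_dvd hm0 hx
  have h4 : orderOf x = orderOf (e.symm x) := (MulEquiv.orderOf_eq e.symm x).symm
  rw [h4] at h3
  obtain ⟨z, hz⟩ := exists_order_of_dvd h3
  have h5 : m / Nat.gcd m g ∣ m := Nat.div_dvd_of_dvd (Nat.gcd_dvd_left m g)
  refine h.false_of_order hp hp5 hz (fun h6 => hr (h6.trans h5)) (fun h6 => h2 (h6.trans h5)) ?_
  have h6 : Nat.gcd m g ≤ d := (Nat.le_of_dvd hg (Nat.gcd_dvd_right m g)).trans hgd
  have h7 : m / Nat.gcd m g * Nat.gcd m g = m := Nat.div_mul_cancel (Nat.gcd_dvd_left m g)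
  by_contra hc
  have h8 : m ≤ (2 * N + 2) * d := by
    rw [← h7]
    exact Nat.mul_le_mul (by omega) h6
  rw [mul_comm] at h8
  omega

/-- an element from a table of the Weyl group -/
theorem exists_of_table {D : ChevalleyDatum} {l : ℕ} {M : CoxeterMatrix (Fin l)} (hty : IsType D l M)
    {W : Type*} [Group W] [Finite W] (cs : CoxeterSystem M W) {d : ℕ} {B : Fin l → Fin l → ℤ} (hB : InvC D l d B)
    (hd0 : d ≠ 0) {A : Mat l} (hA : ∀ i j, A i j = cartanOf D l i j) {L : List (Fin l × Mat l)} (hL : ChainOK A L)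
    {f : ℕ} {c : Fin (f + 1) → ℤ} {V : Fin (f + 1) → Fin l → ℤ} {U : Fin l → ℤ}
    (h : Cfsg.Agent.H493.PGTorus.EigOK (hd L) c V U) {F : Type*} [Field F] [Finite F] {m : ℕ} (hm : 0 < m)
    (hdv : (m : ℤ) = Cfsg.Agent.H493.PGTorus.pv c (Nat.card F : ℕ)) :
    ∃ x : ↥(D.group F), m ∣ orderOf x * Nat.gcd d (Nat.card F - 1) := by
  obtain ⟨x, -, -, hx, -⟩ := exists_comm_torus hty cs hB hd0 hA hL h h (F := F) hm hm (dvd_of_eq hdv) (dvd_of_eq hdv)
  exact ⟨x, hx⟩

/-- the value of a polynomial: a natural number `m` -/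
theorem exists_value {P : ℤ} {b t : ℕ} {s : ℤ} (h : P = (b : ℤ) + (t : ℤ) * s) (hs : 0 ≤ s) (hb : 0 < b) :
    ∃ m : ℕ, (m : ℤ) = P ∧ b ≤ m ∧ 0 < m := by
  have h1 : (0 : ℤ) ≤ (t : ℤ) * s := mul_nonneg (Int.natCast_nonneg t) hs
  obtain ⟨m, hm⟩ := Int.eq_ofNat_of_zero_le (a := P) (by rw [h]; positivity)
  refine ⟨m, hm.symm, ?_, ?_⟩ <;> omega

/-- `E₈(q)` -/
theorem no_E8 (hp : p.Prime) (hp5 : 5 ≤ p) (F : Type*) [Field F] [Fintype F] [CharP F r] (e : K ≃* ↥(chevE8.group F))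
    (h : Reg p r 248 K) : False := by
  obtain ⟨hr, hrq⟩ := char_dvd_card F r
  have hq2 : 2 ≤ Fintype.card F := Fintype.one_lt_card
  rcases Nat.lt_or_ge (Fintype.card F) 3 with hq | hq
  · have hq' : Fintype.card F = 2 := by omega
    have hr2 : r = 2 := by
      rw [hq'] at hrq
      exact (Nat.prime_dvd_prime_iff_eq hr Nat.prime_two).1 hrq
    have hc := Cfsg.Agent.S1065.result hq'
    rw [← Nat.card_congr e.toEquiv] at hc
    refine h.false_of_chk hp hp5 hr (M := 497) (by norm_num) (by norm_num) hc (L := [331, 127]) ?_ (by decide +kernel)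
    intro s hs
    simp only [List.mem_cons, List.not_mem_nil, or_false] at hs
    subst hr2
    rcases hs with rfl | rfl
    · exact ⟨by norm_num, by norm_num, by norm_num, by norm_num⟩
    · exact ⟨by norm_num, by norm_num, by norm_num, by norm_num⟩
  · obtain ⟨t, ht⟩ : ∃ t, Fintype.card F = 3 + t := ⟨Fintype.card F - 3, by omega⟩
    have hexp : ((Fintype.card F : ℕ) : ℤ) ^ 8 + ((Fintype.card F : ℕ) : ℤ) ^ 7 - ((Fintype.card F : ℕ) : ℤ) ^ 5 -
        ((Fintype.card F : ℕ) : ℤ) ^ 4 - ((Fintype.card F : ℕ) : ℤ) ^ 3 + ((Fintype.card F : ℕ) : ℤ) + 1 =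
        (8401 : ℕ) + (t : ℤ) * (22060 + (t : ℤ) * (25182 + (t : ℤ) * (16340 + (t : ℤ) * (6599 + (t : ℤ) * (1700 +
        (t : ℤ) * (273 + (t : ℤ) * (25 + (t : ℤ) * 1))))))) := by
      rw [ht]; push_cast; ring
    obtain ⟨m, hm, hm1, hm0⟩ := exists_value hexp (by positivity) (by norm_num)
    have := finite_W e8T CoxeterMatrix.E₈.toCoxeterSystem
    have hx := exists_of_table e8T CoxeterMatrix.E₈.toCoxeterSystem inv_E8 one_ne_zero AdjE8.hA AdjE8.chain30
      AdjE8.tor30_30 (F := F) hm0 (by rw [pv30, Nat.card_eq_fintype_card]; exact hm)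
    refine h.false_of_torus hp hp5 e (d := 1) (by rw [Nat.gcd_one_left]) (by rw [Nat.gcd_one_left]; norm_num) hx ?_ ?_
      (by omega)
    · refine not_dvd_of_eq hr hrq (x := 1 - ((Fintype.card F : ℕ) : ℤ) ^ 2 - ((Fintype.card F : ℕ) : ℤ) ^ 3 -
        ((Fintype.card F : ℕ) : ℤ) ^ 4 + ((Fintype.card F : ℕ) : ℤ) ^ 6 + ((Fintype.card F : ℕ) : ℤ) ^ 7) ?_
      rw [hm]; ring
    · refine not_two_dvd_of (q := Fintype.card F) (fun x => x ^ 8 + x ^ 7 - x ^ 5 - x ^ 4 - x ^ 3 + x + 1)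
        (by decide) ?_
      have := congrArg (Int.cast : ℤ → ZMod 2) hm
      push_cast at this
      exact this

/-- `E₇(q)` -/
theorem no_E7 (hp : p.Prime) (hp5 : 5 ≤ p) (F : Type*) [Field F] [Fintype F] [CharP F r] (e : K ≃* ↥(chevE7.group F))
    (h : Reg p r 133 K) : False := by
  obtain ⟨hr, hrq⟩ := char_dvd_card F r
  have hq2 : 2 ≤ Fintype.card F := Fintype.one_lt_card
  rcases Nat.lt_or_ge (Fintype.card F) 3 with hq | hq
  · have hq' : Fintype.card F = 2 := by omega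
    have hr2 : r = 2 := by
      rw [hq'] at hrq
      exact (Nat.prime_dvd_prime_iff_eq hr Nat.prime_two).1 hrq
    have hc := Cfsg.Agent.S1064.result hq'
    rw [← Nat.card_congr e.toEquiv, show Nat.gcd 2 (2 - 1) = 1 from rfl, one_mul] at hc
    refine h.false_of_chk hp hp5 hr (M := 267) (by norm_num) (by norm_num) hc (L := [127, 73]) ?_ (by decide +kernel)
    intro s hs
    simp only [List.mem_cons, List.not_mem_nil, or_false] at hs
    subst hr2
    rcases hs with rfl | rfl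
    · exact ⟨by norm_num, by norm_num, by norm_num, by norm_num⟩
    · exact ⟨by norm_num, by norm_num, by norm_num, by norm_num⟩
  · obtain ⟨t, ht⟩ : ∃ t, Fintype.card F = 3 + t := ⟨Fintype.card F - 3, by omega⟩
    have hexp : ((Fintype.card F : ℕ) : ℤ) ^ 6 + ((Fintype.card F : ℕ) : ℤ) ^ 5 + ((Fintype.card F : ℕ) : ℤ) ^ 4 +
        ((Fintype.card F : ℕ) : ℤ) ^ 3 + ((Fintype.card F : ℕ) : ℤ) ^ 2 + ((Fintype.card F : ℕ) : ℤ) + 1 =
        (1093 : ℕ) + (t : ℤ) * (2005 + (t : ℤ) * (1549 + (t : ℤ) * (643 + (t : ℤ) * (151 + (t : ℤ) * (19 +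
        (t : ℤ) * 1))))) := by
      rw [ht]; push_cast; ring
    obtain ⟨m, hm, hm1, hm0⟩ := exists_value hexp (by positivity) (by norm_num)
    have := finite_W e7T CoxeterMatrix.E₇.toCoxeterSystem
    have hx := exists_of_table e7T CoxeterMatrix.E₇.toCoxeterSystem inv_E7 two_ne_zero AdjE7.hA AdjE7.chain7
      AdjE7.tor7_7 (F := F) hm0 (by rw [pv7, Nat.card_eq_fintype_card]; exact hm)
    refine h.false_of_torus hp hp5 e (d := 2) (Nat.gcd_le_left _ (by norm_num)) (Nat.gcd_pos_of_pos_left _ (by norm_num))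
      hx ?_ ?_ (by omega)
    · refine not_dvd_of_eq hr hrq (x := 1 + ((Fintype.card F : ℕ) : ℤ) + ((Fintype.card F : ℕ) : ℤ) ^ 2 +
        ((Fintype.card F : ℕ) : ℤ) ^ 3 + ((Fintype.card F : ℕ) : ℤ) ^ 4 + ((Fintype.card F : ℕ) : ℤ) ^ 5) ?_
      rw [hm]; ring
    · refine not_two_dvd_of (q := Fintype.card F) (fun x => x ^ 6 + x ^ 5 + x ^ 4 + x ^ 3 + x ^ 2 + x + 1)
        (by decide) ?_
      have := congrArg (Int.cast : ℤ → ZMod 2) hm
      push_cast at this
      exact this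

/-- `E₆(q)` -/
theorem no_E6 (hp : p.Prime) (hp5 : 5 ≤ p) (F : Type*) [Field F] [Fintype F] [CharP F r] (e : K ≃* ↥(chevE6.group F))
    (h : Reg p r 78 K) : False := by
  obtain ⟨hr, hrq⟩ := char_dvd_card F r
  have hq2 : 2 ≤ Fintype.card F := Fintype.one_lt_card
  rcases Nat.lt_or_ge (Fintype.card F) 3 with hq | hq
  · have hq' : Fintype.card F = 2 := by omega
    have hr2 : r = 2 := by
      rw [hq'] at hrq
      exact (Nat.prime_dvd_prime_iff_eq hr Nat.prime_two).1 hrq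
    have hc := Cfsg.Agent.S1063.result hq'
    rw [← Nat.card_congr e.toEquiv, show Nat.gcd 3 (2 - 1) = 1 from rfl, one_mul] at hc
    refine h.false_of_chk hp hp5 hr (M := 157) (by norm_num) (by norm_num) hc (L := [73, 31]) ?_ (by decide +kernel)
    intro s hs
    simp only [List.mem_cons, List.not_mem_nil, or_false] at hs
    subst hr2
    rcases hs with rfl | rfl
    · exact ⟨by norm_num, by norm_num, by norm_num, by norm_num⟩
    · exact ⟨by norm_num, by norm_num, by norm_num, by norm_num⟩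
  · obtain ⟨t, ht⟩ : ∃ t, Fintype.card F = 3 + t := ⟨Fintype.card F - 3, by omega⟩
    have hexp : ((Fintype.card F : ℕ) : ℤ) ^ 6 + ((Fintype.card F : ℕ) : ℤ) ^ 3 + 1 =
        (757 : ℕ) + (t : ℤ) * (1485 + (t : ℤ) * (1224 + (t : ℤ) * (541 + (t : ℤ) * (135 + (t : ℤ) * (18 +
        (t : ℤ) * 1))))) := by
      rw [ht]; push_cast; ring
    obtain ⟨m, hm, hm1, hm0⟩ := exists_value hexp (by positivity) (by norm_num)
    have := finite_W e6T CoxeterMatrix.E₆.toCoxeterSystem
    have hx := exists_of_table e6T CoxeterMatrix.E₆.toCoxeterSystem inv_E6 three_ne_zero AdjE6.hA AdjE6.chain9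
      AdjE6.tor9_9 (F := F) hm0 (by rw [pv9, Nat.card_eq_fintype_card]; exact hm)
    refine h.false_of_torus hp hp5 e (d := 3) (Nat.gcd_le_left _ (by norm_num)) (Nat.gcd_pos_of_pos_left _ (by norm_num))
      hx ?_ ?_ (by omega)
    · refine not_dvd_of_eq hr hrq (x := ((Fintype.card F : ℕ) : ℤ) ^ 2 + ((Fintype.card F : ℕ) : ℤ) ^ 5) ?_
      rw [hm]; ring
    · refine not_two_dvd_of (q := Fintype.card F) (fun x => x ^ 6 + x ^ 3 + 1)
        (by decide) ?_
      have := congrArg (Int.cast : ℤ → ZMod 2) hm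
      push_cast at this
      exact this

/-- `F₄(q)` -/
theorem no_F4 (hp : p.Prime) (hp5 : 5 ≤ p) (F : Type*) [Field F] [Fintype F] [CharP F r] (e : K ≃* ↥(chevF4.group F))
    (h : Reg p r 52 K) : False := by
  obtain ⟨hr, hrq⟩ := char_dvd_card F r
  have hq2 : 2 ≤ Fintype.card F := Fintype.one_lt_card
  rcases Nat.lt_or_ge (Fintype.card F) 4 with hq | hq
  · obtain hq' | hq' : Fintype.card F = 2 ∨ Fintype.card F = 3 := by omega
    · have hr2 : r = 2 := by
        rw [hq'] at hrq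
        exact (Nat.prime_dvd_prime_iff_eq hr Nat.prime_two).1 hrq
      have hc := Cfsg.Agent.S1062.result hq'
      rw [← Nat.card_congr e.toEquiv] at hc
      refine h.false_of_chk hp hp5 hr (M := 105) (by norm_num) (by norm_num) hc (L := [17, 13]) ?_ (by decide +kernel)
      intro s hs
      simp only [List.mem_cons, List.not_mem_nil, or_false] at hs
      subst hr2
      rcases hs with rfl | rfl
      · exact ⟨by norm_num, by norm_num, by norm_num, by norm_num⟩
      · exact ⟨by norm_num, by norm_num, by norm_num, by norm_num⟩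
    · have hr2 : r = 3 := by
        rw [hq'] at hrq
        exact (Nat.prime_dvd_prime_iff_eq hr Nat.prime_three).1 hrq
      have hc := Cfsg.Agent.S1062.result hq'
      rw [← Nat.card_congr e.toEquiv] at hc
      refine h.false_of_chk hp hp5 hr (M := 105) (by norm_num) (by norm_num) hc (L := [73, 41]) ?_ (by decide +kernel)
      intro s hs
      simp only [List.mem_cons, List.not_mem_nil, or_false] at hs
      subst hr2
      rcases hs with rfl | rfl
      · exact ⟨by norm_num, by norm_num, by norm_num, by norm_num⟩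
      · exact ⟨by norm_num, by norm_num, by norm_num, by norm_num⟩
  · obtain ⟨t, ht⟩ : ∃ t, Fintype.card F = 4 + t := ⟨Fintype.card F - 4, by omega⟩
    have hexp : ((Fintype.card F : ℕ) : ℤ) ^ 4 - ((Fintype.card F : ℕ) : ℤ) ^ 2 + 1 =
        (241 : ℕ) + (t : ℤ) * (248 + (t : ℤ) * (95 + (t : ℤ) * (16 + (t : ℤ) * 1))) := by
      rw [ht]; push_cast; ring
    obtain ⟨m, hm, hm1, hm0⟩ := exists_value hexp (by positivity) (by norm_num)
    have := finite_W f4T CoxeterMatrix.F₄.toCoxeterSystem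
    have hx := exists_of_table f4T CoxeterMatrix.F₄.toCoxeterSystem inv_F4 one_ne_zero AdjF4.hA AdjF4.chain12
      AdjF4.tor12_12 (F := F) hm0 (by rw [pv12, Nat.card_eq_fintype_card]; exact hm)
    refine h.false_of_torus hp hp5 e (d := 1) (by rw [Nat.gcd_one_left]) (by rw [Nat.gcd_one_left]; norm_num) hx ?_ ?_
      (by omega)
    · refine not_dvd_of_eq hr hrq (x := -((Fintype.card F : ℕ) : ℤ) + ((Fintype.card F : ℕ) : ℤ) ^ 3) ?_
      rw [hm]; ring
    · refine not_two_dvd_of (q := Fintype.card F) (fun x => x ^ 4 - x ^ 2 + 1) (by decide) ?_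
      have := congrArg (Int.cast : ℤ → ZMod 2) hm
      push_cast at this
      exact this

/-- the torus of order `q² - 1` of `G₂` with a cyclic factor of order `q² - 1` -/
def T8 : List (Fin 2 × Mat 2) := [(1, ![![1, 1], ![0, -1]])]

theorem chain8 : ChainOK AdjG2.Am T8 := by decide +kernel

/-- `q² - 1` -/
def c8 : Fin (1 + 1) → ℤ := ![-1, 0]

/-- the eigenvector -/
def V8 : Fin (1 + 1) → Fin 2 → ℤ := ![![1, 0], ![1, 1]]

/-- the functional -/
def U8 : Fin 2 → ℤ := ![1, -1]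

theorem tor8 : Cfsg.Agent.H493.PGTorus.EigOK (hd T8) c8 V8 U8 := by decide +kernel

/-- `G₂(q)`, `q ≥ 3` -/
theorem no_G2 (hp : p.Prime) (hp5 : 5 ≤ p) (F : Type*) [Field F] [Fintype F] [CharP F r] (h3 : 3 ≤ Fintype.card F)
    (e : K ≃* ↥(chevG2.group F)) (h : Reg p r 14 K) : False := by
  obtain ⟨hr, hrq⟩ := char_dvd_card F r
  have := finite_W g2T CoxeterMatrix.G₂.toCoxeterSystem
  rcases Nat.lt_or_ge (Fintype.card F) 5 with hq | hq
  · obtain hq' | hq' : Fintype.card F = 3 ∨ Fintype.card F = 4 := by omega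
    · have hr2 : r = 3 := by
        rw [hq'] at hrq
        exact (Nat.prime_dvd_prime_iff_eq hr Nat.prime_three).1 hrq
      have hc := Cfsg.Agent.S1059.result hq'
      rw [← Nat.card_congr e.toEquiv] at hc
      have hp13 : p = 13 := by
        refine h.eq_of_chkx hp hp5 hr (M := 29) (x := 13) (by norm_num) (by norm_num) hc (L := [13, 7]) ?_
          (by decide +kernel)
        intro s hs
        simp only [List.mem_cons, List.not_mem_nil, or_false] at hs
        subst hr2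
        rcases hs with rfl | rfl
        · exact ⟨by norm_num, by norm_num, by norm_num, by norm_num⟩
        · exact ⟨by norm_num, by norm_num, by norm_num, by norm_num⟩
      obtain ⟨x, hx⟩ := exists_of_table g2T CoxeterMatrix.G₂.toCoxeterSystem inv_G2 one_ne_zero AdjG2.hA chain8
        tor8 (F := F) (m := 8) (by norm_num) (by
          rw [Nat.card_eq_fintype_card, hq']
          simp [Cfsg.Agent.H493.PGTorus.pv, c8, Fin.sum_univ_succ])
      rw [Nat.gcd_one_left, mul_one, ← MulEquiv.orderOf_eq e.symm x] at hx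
      obtain ⟨z, hz⟩ := exists_order_of_dvd hx
      subst hr2 hp13
      have h1 := h.orderOf_cases (z := z) (by rw [hz]; norm_num)
      rw [hz] at h1
      rcases h1 with h1 | ⟨m, hm, h1, h2⟩
      · norm_num at h1
      · have hm1 : m = 1 := by
          by_contra hc
          have : 13 ^ 2 ≤ 13 ^ m := Nat.pow_le_pow_right (by norm_num) (by omega)
          omega
        subst hm1
        norm_num at h2
    · have hr2 : r = 2 := by
        rw [hq', show (4 : ℕ) = 2 ^ 2 from rfl] at hrq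
        exact (Nat.prime_dvd_prime_iff_eq hr Nat.prime_two).1 (hr.dvd_of_dvd_pow hrq)
      have hc := Cfsg.Agent.S1059.result hq'
      rw [← Nat.card_congr e.toEquiv] at hc
      refine h.false_of_chk hp hp5 hr (M := 29) (by norm_num) (by norm_num) hc (L := [13, 7, 5]) ?_ (by decide +kernel)
      intro s hs
      simp only [List.mem_cons, List.not_mem_nil, or_false] at hs
      subst hr2
      rcases hs with rfl | rfl | rfl
      · exact ⟨by norm_num, by norm_num, by norm_num, by norm_num⟩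
      · exact ⟨by norm_num, by norm_num, by norm_num, by norm_num⟩
      · exact ⟨by norm_num, by norm_num, by norm_num, by norm_num⟩
  · obtain ⟨t, ht⟩ : ∃ t, Fintype.card F = 5 + t := ⟨Fintype.card F - 5, by omega⟩
    have hexp : ((Fintype.card F : ℕ) : ℤ) ^ 2 + ((Fintype.card F : ℕ) : ℤ) + 1 =
        (31 : ℕ) + (t : ℤ) * (11 + (t : ℤ) * 1) := by
      rw [ht]; push_cast; ring
    obtain ⟨m, hm, hm1, hm0⟩ := exists_value hexp (by positivity) (by norm_num)
    have hx := exists_of_table g2T CoxeterMatrix.G₂.toCoxeterSystem inv_G2 one_ne_zero AdjG2.hA AdjG2.chain3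
      AdjG2.tor3_3 (F := F) hm0 (by rw [pv3, Nat.card_eq_fintype_card]; exact hm)
    refine h.false_of_torus hp hp5 e (d := 1) (by rw [Nat.gcd_one_left]) (by rw [Nat.gcd_one_left]; norm_num) hx ?_ ?_
      (by omega)
    · refine not_dvd_of_eq hr hrq (x := 1 + ((Fintype.card F : ℕ) : ℤ)) ?_
      rw [hm]; ring
    · refine not_two_dvd_of (q := Fintype.card F) (fun x => x ^ 2 + x + 1) (by decide) ?_
      have := congrArg (Int.cast : ℤ → ZMod 2) hm
      push_cast at this
      exact this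

/-- **The exceptional Chevalley groups**, from the arithmetic conditions. -/
theorem no_chev {A : Subgroup K} [IsSimpleGroup K] (hp : p.Prime) (hp5 : 5 ≤ p) (hrp : r ≠ p) (hK : LieHyp r K)
    (h : IsExceptionalChevChar r K) (hA : Pr p A) : False := by
  obtain ⟨F, _, _, _, h⟩ := h
  obtain ⟨hr, -⟩ := char_dvd_card F r
  rcases h with ⟨h3, h⟩ | h | h | h | h
  · obtain ⟨e⟩ := h
    exact no_G2 hp hp5 F h3 e (reg_sub hp hp5 hr hrp hK hA (card_Idx chevG2) e)
  · obtain ⟨e⟩ := h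
    exact no_F4 hp hp5 F e (reg_sub hp hp5 hr hrp hK hA (card_Idx chevF4) e)
  · obtain ⟨e⟩ := h
    exact no_E6 hp hp5 F e (reg_sub hp hp5 hr hrp hK hA (card_Idx chevE6) e)
  · obtain ⟨e⟩ := h
    exact no_E7 hp hp5 F e (reg_sub hp hp5 hr hrp hK hA (card_Idx chevE7) e)
  · obtain ⟨e⟩ := h
    exact no_E8 hp hp5 F e (reg_sub hp hp5 hr hrp hK hA (card_Idx chevE8) e)

end Cfsg.Agent.H733.Tor
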