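import Cfsg.Agent.H733.Tor.Chk
import Cfsg.Agent.H733.Tor.RowsChev
import Cfsg.Agent.Lib.Zsigmondy
import Cfsg.Agent.S1068
import Cfsg.Agent.S1069
import Cfsg.Agent.S1163

/-!
# S3235: the Suzuki groups, the Ree groups and `²F₄(q)` (helper733)
-/

set_option autoImplicit false

namespace Cfsg.Agent.H733.Tor

open Subgroup Matrix Module Cfsg Cfsg.Lie Cfsg.Lie.ChevalleyDatum
open Cfsg.Agent.H103.Tor

/-- a field with a power of the prime `a` elements has characteristic `a` -/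
theorem charP_of_card {F : Type*} [Field F] [Fintype F] {a n : ℕ} (ha : a.Prime) (h : Fintype.card F = a ^ n) :
    CharP F a := by
  obtain ⟨b, hb⟩ := CharP.exists F
  obtain ⟨hb1, hb2⟩ := char_dvd_card F b
  rw [h] at hb2
  have h1 := (Nat.prime_dvd_prime_iff_eq hb1 ha).1 (hb1.dvd_of_dvd_pow hb2)
  rwa [h1] at hb

/-- a large prime divisor of `a ^ k + 1` -/
theorem exists_big_prime {a k : ℕ} (ha : 2 ≤ a) (hk : 4 ≤ k) : ∃ s : ℕ, s.Prime ∧ ¬ s ∣ a ∧ s ∣ a ^ k + 1 ∧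
    2 * k + 1 ≤ s := by
  obtain ⟨s, hs, ho⟩ := Cfsg.Agent.Lib.Zsigmondy.exists_prime_orderOf (a := a) (n := 2 * k) ha (by omega)
    (fun h => by omega) (fun h => by omega)
  have hsa : ¬ s ∣ a := by
    intro h
    have h1 : (a : ZMod s) = 0 := (ZMod.natCast_eq_zero_iff a s).2 h
    have : Fact s.Prime := ⟨hs⟩
    rw [h1, orderOf_eq_zero_iff'.2] at ho
    · omega
    · intro n hn h2
      rw [zero_pow hn.ne'] at h2
      exact zero_ne_one h2
  refine ⟨s, hs, hsa, ?_, ?_⟩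
  · have h1 : s ∣ a ^ (2 * k) - 1 := (Cfsg.Agent.Lib.Zsigmondy.dvd_pow_sub_one_iff (by omega) _).2 (by rw [ho])
    have h2 : ¬ s ∣ a ^ k - 1 := by
      rw [Cfsg.Agent.Lib.Zsigmondy.dvd_pow_sub_one_iff (by omega), ho]
      intro h3
      have := Nat.le_of_dvd (by omega) h3
      omega
    have h3 : a ^ (2 * k) - 1 = (a ^ k + 1) * (a ^ k - 1) := by
      rw [mul_comm 2 k, pow_mul]
      exact Nat.sq_sub_sq (a ^ k) 1
    rw [h3] at h1
    exact (hs.dvd_mul.1 h1).resolve_right h2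
  · have h1 := Cfsg.Agent.Lib.Zsigmondy.orderOf_dvd_pred hs hsa
    rw [ho] at h1
    have := hs.two_le
    have := Nat.le_of_dvd (by omega) h1
    omega

theorem ne_of_not_dvd {s a : ℕ} (h : ¬ s ∣ a) : s ≠ a := fun h1 => h (h1 ▸ dvd_rfl)

variable {p : ℕ} {K : Type*} [Group K] [Finite K]

/-- `Sz(q)` -/
theorem no_Sz (hp : p.Prime) (hp5 : 5 ≤ p) (F : Type*) [Field F] [Fintype F] {m : ℕ} (hm : 1 ≤ m)
    (hF : Fintype.card F = 2 ^ (2 * m + 1)) (e : K ≃* ↥(Lie.Sz F (2 ^ (m + 1)))) (h : Reg p 2 4 K) : False := by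
  have hc := (Cfsg.Agent.S1163.result hm hF).1
  rw [← Nat.card_congr e.toEquiv] at hc
  obtain ⟨s, hs, h1, h2, h3⟩ := exists_big_prime (a := 2) (k := (2 * m + 1) * 2) le_rfl (by omega)
  rw [pow_mul] at h2
  have h4 := h.prime_le hp hp5 hs (ne_of_not_dvd h1) Nat.prime_two (by rw [hc]; exact Dvd.dvd.mul_left h2 _)
  omega

/-- `²G₂(q)` -/
theorem no_Ree (hp : p.Prime) (hp5 : 5 ≤ p) (F : Type*) [Field F] [Fintype F] {m : ℕ} (hm : 1 ≤ m)
    (hF : Fintype.card F = 3 ^ (2 * m + 1)) (e : K ≃* ↥(Lie.twistedG2 F (3 ^ m))) (h : Reg p 3 14 K) : False := by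
  have hc := Cfsg.Agent.S1069.result hF
  rw [← Nat.card_congr e.toEquiv] at hc
  rcases Nat.lt_or_ge m 2 with hm2 | hm2
  · obtain rfl : m = 1 := by omega
    have h4 := h.prime_le hp hp5 (s := 37) (by norm_num) (by norm_num) Nat.prime_three (by rw [hc]; norm_num)
    omega
  · obtain ⟨s, hs, h1, h2, h3⟩ := exists_big_prime (a := 3) (k := (2 * m + 1) * 3) (by norm_num) (by omega)
    rw [pow_mul] at h2
    have h4 := h.prime_le hp hp5 hs (ne_of_not_dvd h1) Nat.prime_three (by rw [hc]; exact Dvd.dvd.mul_left h2 _)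
    omega

/-- `²F₄(q)` -/
theorem no_2F4 (hp : p.Prime) (hp5 : 5 ≤ p) (F : Type*) [Field F] [Fintype F] {m : ℕ} (hm : 1 ≤ m)
    (hF : Fintype.card F = 2 ^ (2 * m + 1)) (e : K ≃* ↥(Lie.twistedF4 F (2 ^ m))) (h : Reg p 2 52 K) : False := by
  have hc := Cfsg.Agent.S1068.result hF
  rw [← Nat.card_congr e.toEquiv] at hc
  rcases Nat.lt_or_ge m 4 with hm2 | hm2
  · obtain rfl | rfl | rfl : m = 1 ∨ m = 2 ∨ m = 3 := by omega
    · have h4 := h.prime_le hp hp5 (s := 109) (by norm_num) (by norm_num) Nat.prime_two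
        (by rw [hc]; exact Dvd.dvd.mul_left (by norm_num) _)
      omega
    · have h4 := h.prime_le hp hp5 (s := 1321) (by norm_num) (by norm_num) Nat.prime_two
        (by rw [hc]; exact Dvd.dvd.mul_left (by norm_num) _)
      omega
    · have h4 := h.prime_le hp hp5 (s := 1429) (by norm_num) (by norm_num) Nat.prime_two
        (by rw [hc]; exact Dvd.dvd.mul_left (by norm_num) _)
      omega
  · obtain ⟨s, hs, h1, h2, h3⟩ := exists_big_prime (a := 2) (k := (2 * m + 1) * 6) (by norm_num) (by omega)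
    rw [pow_mul] at h2
    have h4 := h.prime_le hp hp5 hs (ne_of_not_dvd h1) Nat.prime_two (by rw [hc]; exact Dvd.dvd.mul_left h2 _)
    omega

/-- **The Suzuki groups.** -/
theorem no_sz {A : Subgroup K} [IsSimpleGroup K] (hp : p.Prime) (hp5 : 5 ≤ p) (hK : LieHyp 2 K)
    (h : Lie.IsoSuzuki K) (hA : Pr p A) : False := by
  obtain ⟨F, _, _, m, hm, hF, ⟨e⟩⟩ := h
  have := charP_of_card Nat.prime_two hF
  exact no_Sz hp hp5 F hm hF e (reg_sub hp hp5 Nat.prime_two (by omega) hK hA (Fintype.card_fin 4) e)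

/-- **The Ree groups.** -/
theorem no_ree {A : Subgroup K} [IsSimpleGroup K] (hp : p.Prime) (hp5 : 5 ≤ p) (hK : LieHyp 3 K)
    (h : Lie.IsoRee K) (hA : Pr p A) : False := by
  obtain ⟨F, _, _, m, hm, hF, ⟨e⟩⟩ := h
  have := charP_of_card Nat.prime_three hF
  exact no_Ree hp hp5 F hm hF e (reg_sub hp hp5 Nat.prime_three (by omega) hK hA (card_Idx chevG2) e)

/-- **The groups `²F₄(q)`.** -/
theorem no_twF4 {A : Subgroup K} [IsSimpleGroup K] (hp : p.Prime) (hp5 : 5 ≤ p) (hK : LieHyp 2 K)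
    (h : Lie.Iso2F4 K) (hA : Pr p A) : False := by
  obtain ⟨F, _, _, m, hm, hF, ⟨e⟩⟩ := h
  have := charP_of_card Nat.prime_two hF
  exact no_2F4 hp hp5 F hm hF e (reg_sub hp hp5 Nat.prime_two (by omega) hK hA (card_Idx chevF4) e)

end Cfsg.Agent.H733.Tor
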