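import Cfsg.Agent.H733.Tor.Hyp
import Cfsg.Agent.H733.Tor.RowsChev
import Cfsg.Agent.H733.Tor.RowsTw
import Cfsg.Agent.H733.Tor.RowsRank
import Cfsg.Agent.H103.Tor.Iface

/-!
# S3235: the rows of the exceptional groups in cross characteristic (helper733)
-/

set_option autoImplicit false

namespace Cfsg.Agent.H733.Tor

open Cfsg Cfsg.Agent.H103.Tor

variable {p : ℕ} (hp : p.Prime) (hp5 : 5 ≤ p) {K : Type*} [Group K] [Finite K] [IsSimpleGroup K]

include hp hp5

/-- **The exceptional Chevalley groups in cross characteristic.** -/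
theorem row_chevCross (r : ℕ) (hr : r ≠ p) (h : IsExceptionalChevChar r K) : Row p K := by
  intro A hA
  have hr' : r.Prime := by
    obtain ⟨F, _, _, _, -⟩ := h
    exact (char_dvd_card F r).1
  exact (no_chev hp hp5 hr
    (lieHyp hr' (Or.inr (Or.inr (Or.inr (Or.inr (Or.inr (Or.inr (Or.inl h)))))))) h hA).elim

/-- **`²E₆(q)`, `³D₄(q)` in cross characteristic.** -/
theorem row_twCross (r : ℕ) (hr : r ≠ p) (h : IsTwistedE6D4Char r K) : Row p K := by
  intro A hA
  have hr' : r.Prime := by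
    obtain ⟨F, _, _, _, -⟩ := h
    exact (char_dvd_card F r).1
  exact (no_tw hp hp5 hr
    (lieHyp hr' (Or.inr (Or.inr (Or.inr (Or.inr (Or.inr (Or.inr (Or.inr (Or.inl h))))))))) h hA).elim

/-- **The Suzuki groups.** -/
theorem row_sz (h : Lie.IsoSuzuki K) : Row p K := by
  intro A hA
  exact (no_sz hp hp5 (lieHyp Nat.prime_two
    (Or.inr (Or.inr (Or.inr (Or.inr (Or.inr (Or.inr (Or.inr (Or.inr (Or.inl ⟨rfl, h⟩)))))))))) h hA).elim

/-- **The groups `²F₄(q)`.** -/
theorem row_twF4 (h : Lie.Iso2F4 K) : Row p K := by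
  intro A hA
  exact (no_twF4 hp hp5 (lieHyp Nat.prime_two
    (Or.inr (Or.inr (Or.inr (Or.inr (Or.inr (Or.inr (Or.inr (Or.inr (Or.inr (Or.inl ⟨rfl, h⟩))))))))))) h hA).elim

/-- **The Ree groups.** -/
theorem row_ree (h : Lie.IsoRee K) : Row p K := by
  intro A hA
  exact (no_ree hp hp5 (lieHyp Nat.prime_three
    (Or.inr (Or.inr (Or.inr (Or.inr (Or.inr (Or.inr (Or.inr (Or.inr (Or.inr (Or.inr ⟨rfl, h⟩))))))))))) h hA).elim

end Cfsg.Agent.H733.Tor
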